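import Mathlib
import Cfsg.Agent.Lib.Helper70.S3701.Defs

set_option autoImplicit false

/-! S3701 team project (coordinator helper70), package GENS. -/

namespace Cfsg.Agent.Lib.Helper85.S3701

open Cfsg.Agent.Lib.Helper70.S3701

universe u

/-- The 3-cycle `(0 1 2)`. -/
abbrev pa : Equiv.Perm (Fin 9) := Equiv.swap (0 : Fin 9) 1 * Equiv.swap 1 2
/-- The 3-cycle `(3 4 5)`. -/
abbrev pb : Equiv.Perm (Fin 9) := Equiv.swap (3 : Fin 9) 4 * Equiv.swap 4 5
/-- The 3-cycle `(6 7 8)`. -/
abbrev pc : Equiv.Perm (Fin 9) := Equiv.swap (6 : Fin 9) 7 * Equiv.swap 7 8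
/-- The involution `(0 1)(3 4)`. -/
abbrev pu : Equiv.Perm (Fin 9) := Equiv.swap (0 : Fin 9) 1 * Equiv.swap 3 4
/-- The involution `(0 1)(6 7)`. -/
abbrev pv : Equiv.Perm (Fin 9) := Equiv.swap (0 : Fin 9) 1 * Equiv.swap 6 7

theorem pa_mem : pa ∈ Subgroup.closure S0 := Subgroup.subset_closure (by simp [S0])
theorem pb_mem : pb ∈ Subgroup.closure S0 := Subgroup.subset_closure (by simp [S0])
theorem pc_mem : pc ∈ Subgroup.closure S0 := Subgroup.subset_closure (by simp [S0])
theorem pu_mem : pu ∈ Subgroup.closure S0 := Subgroup.subset_closure (by simp [S0])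
theorem pv_mem : pv ∈ Subgroup.closure S0 := Subgroup.subset_closure (by simp [S0])

/-- GENS: transport the generators through the given isomorphism. -/
theorem pkgGens : PkgGens.{u} := by
  intro G _ _ H ⟨e⟩
  let φ : ↥(Subgroup.closure S0) →* G := H.subtype.comp e.symm.toMonoidHom
  have hφ : Function.Injective φ := H.subtype_injective.comp e.symm.injective
  have hφH : ∀ x, φ x ∈ H := fun x => (e.symm x).2
  let a0 : ↥(Subgroup.closure S0) := ⟨pa, pa_mem⟩
  let b0 : ↥(Subgroup.closure S0) := ⟨pb, pb_mem⟩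
  let c0 : ↥(Subgroup.closure S0) := ⟨pc, pc_mem⟩
  let u0 : ↥(Subgroup.closure S0) := ⟨pu, pu_mem⟩
  let v0 : ↥(Subgroup.closure S0) := ⟨pv, pv_mem⟩
  have ha1 : a0 ≠ 1 := fun h => absurd (congrArg Subtype.val h) (show pa ≠ 1 by decide)
  have hb1 : b0 ≠ 1 := fun h => absurd (congrArg Subtype.val h) (show pb ≠ 1 by decide)
  have hc1 : c0 ≠ 1 := fun h => absurd (congrArg Subtype.val h) (show pc ≠ 1 by decide)
  have ha3 : a0 ^ 3 = 1 := Subtype.ext (show pa ^ 3 = 1 by decide)
  have hb3 : b0 ^ 3 = 1 := Subtype.ext (show pb ^ 3 = 1 by decide)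
  have hc3 : c0 ^ 3 = 1 := Subtype.ext (show pc ^ 3 = 1 by decide)
  have hab : a0 * b0 = b0 * a0 := Subtype.ext (show pa * pb = pb * pa by decide)
  have hac : a0 * c0 = c0 * a0 := Subtype.ext (show pa * pc = pc * pa by decide)
  have hbc : b0 * c0 = c0 * b0 := Subtype.ext (show pb * pc = pc * pb by decide)
  have hu2 : u0 * u0 = 1 := Subtype.ext (show pu * pu = 1 by decide)
  have hv2 : v0 * v0 = 1 := Subtype.ext (show pv * pv = 1 by decide)
  have huv : u0 * v0 = v0 * u0 := Subtype.ext (show pu * pv = pv * pu by decide)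
  have hua : u0 * a0 * u0⁻¹ = a0⁻¹ := Subtype.ext (show pu * pa * pu⁻¹ = pa⁻¹ by decide)
  have hub : u0 * b0 * u0⁻¹ = b0⁻¹ := Subtype.ext (show pu * pb * pu⁻¹ = pb⁻¹ by decide)
  have huc : u0 * c0 * u0⁻¹ = c0 := Subtype.ext (show pu * pc * pu⁻¹ = pc by decide)
  have hva : v0 * a0 * v0⁻¹ = a0⁻¹ := Subtype.ext (show pv * pa * pv⁻¹ = pa⁻¹ by decide)
  have hvb : v0 * b0 * v0⁻¹ = b0 := Subtype.ext (show pv * pb * pv⁻¹ = pb by decide)
  have hvc : v0 * c0 * v0⁻¹ = c0⁻¹ := Subtype.ext (show pv * pc * pv⁻¹ = pc⁻¹ by decide)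
  refine ⟨φ a0, φ b0, φ c0, φ u0, φ v0, ?_⟩
  refine
    { haH := hφH a0, hbH := hφH b0, hcH := hφH c0, huH := hφH u0, hvH := hφH v0,
      a1 := fun h => ha1 (hφ (h.trans (map_one φ).symm)),
      b1 := fun h => hb1 (hφ (h.trans (map_one φ).symm)),
      c1 := fun h => hc1 (hφ (h.trans (map_one φ).symm)),
      a3 := by rw [← map_pow, ha3, map_one],
      b3 := by rw [← map_pow, hb3, map_one],
      c3 := by rw [← map_pow, hc3, map_one],
      ab := by rw [← map_mul, hab, map_mul],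
      ac := by rw [← map_mul, hac, map_mul],
      bc := by rw [← map_mul, hbc, map_mul],
      u2 := by rw [← map_mul, hu2, map_one],
      v2 := by rw [← map_mul, hv2, map_one],
      uv := by rw [← map_mul, huv, map_mul],
      ua := by rw [← map_inv, ← map_inv, ← map_mul, ← map_mul, hua],
      ub := by rw [← map_inv, ← map_inv, ← map_mul, ← map_mul, hub],
      uc := by rw [← map_inv, ← map_mul, ← map_mul, huc],
      va := by rw [← map_inv, ← map_inv, ← map_mul, ← map_mul, hva],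
      vb := by rw [← map_inv, ← map_mul, ← map_mul, hvb],
      vc := by rw [← map_inv, ← map_inv, ← map_mul, ← map_mul, hvc],
      gen := ?_ }
  intro h hh
  have hle : Subgroup.closure
      ((Subtype.val : ↥(Subgroup.closure S0) → Equiv.Perm (Fin 9)) ⁻¹' S0) ≤
      (Subgroup.closure ({φ a0, φ b0, φ c0, φ u0, φ v0} : Set G)).comap φ := by
    rw [Subgroup.closure_le]
    intro x hx
    have hx' : (x : Equiv.Perm (Fin 9)) ∈ S0 := hx
    simp only [S0, Set.mem_insert_iff, Set.mem_singleton_iff] at hx'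
    show φ x ∈ Subgroup.closure ({φ a0, φ b0, φ c0, φ u0, φ v0} : Set G)
    apply Subgroup.subset_closure
    rcases hx' with h1 | h1 | h1 | h1 | h1
    · have : x = a0 := Subtype.ext h1
      rw [this]; simp
    · have : x = b0 := Subtype.ext h1
      rw [this]; simp
    · have : x = c0 := Subtype.ext h1
      rw [this]; simp
    · have : x = u0 := Subtype.ext h1
      rw [this]; simp
    · have : x = v0 := Subtype.ext h1
      rw [this]; simp
  rw [Subgroup.closure_closure_coe_preimage] at hle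
  have h2 : φ (e ⟨h, hh⟩) ∈ Subgroup.closure ({φ a0, φ b0, φ c0, φ u0, φ v0} : Set G) :=
    hle (Subgroup.mem_top _)
  have h3 : φ (e ⟨h, hh⟩) = h := by
    show ((e.symm (e ⟨h, hh⟩) : ↥H) : G) = h
    rw [MulEquiv.symm_apply_apply]
  rw [h3] at h2
  exact h2

end Cfsg.Agent.Lib.Helper85.S3701
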