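import Mathlib
import Cfsg.Agent.Lib.Helper70.S3701.Defs

set_option autoImplicit false

/-! S3701 team project (coordinator helper70), package SYMM. -/

namespace Cfsg.Agent.Lib.Helper85.S3701

open Cfsg.Agent.Lib.Helper70.S3701

universe u

/-- SYMM: the two symmetries of the data. -/
theorem pkgSymm : PkgSymm.{u} := by
  intro G _ _ H T a b c w w' D
  have hbc : Commute b c := D.bc
  have hab : Commute a b := D.ab
  have hww : Commute w w' := D.ww'
  have hwinv : w⁻¹ = w := inv_eq_of_mul_eq_one_left D.w2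
  have hw'inv : w'⁻¹ = w' := inv_eq_of_mul_eq_one_left D.w'2
  have hw2 : w ^ 2 = 1 := by rw [pow_two]; exact D.w2
  refine ⟨?_, ?_⟩
  · refine
      { haT := D.haT, hbT := D.hcT, hcT := D.hbT, hwH := D.hwH,
        hw'H := H.mul_mem D.hwH D.hw'H, hTH := D.hTH,
        a3 := D.a3, b3 := D.c3, c3 := D.b3,
        ab := D.ac, ac := D.ab, bc := D.bc.symm,
        w2 := D.w2, w'2 := ?_, ww' := ?_,
        wa := D.wa, wb := D.wc, wc := D.wb,
        w'a := ?_, w'b := ?_, w'c := ?_,
        T_eq := ?_, H_eq := ?_,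
        cardT := D.cardT, cardH := D.cardH, indep := ?_, hN := D.hN, hC := D.hC }
    · calc w * w' * (w * w') = w * (w' * w) * w' := by group
        _ = w * (w * w') * w' := by rw [D.ww']
        _ = (w * w) * (w' * w') := by group
        _ = 1 := by rw [D.w2, D.w'2, one_mul]
    · calc w * (w * w') = w * (w' * w) := by rw [D.ww']
        _ = w * w' * w := by group
    · calc w * w' * a * (w * w')⁻¹ = w * (w' * a * w'⁻¹) * w⁻¹ := by group
        _ = (w * a * w⁻¹)⁻¹ := by rw [D.w'a]; group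
        _ = a⁻¹ := by rw [D.wa]
    · calc w * w' * c * (w * w')⁻¹ = w * (w' * c * w'⁻¹) * w⁻¹ := by group
        _ = (w * c * w⁻¹)⁻¹ := by rw [D.w'c]; group
        _ = c := by rw [D.wc, inv_inv]
    · calc w * w' * b * (w * w')⁻¹ = w * (w' * b * w'⁻¹) * w⁻¹ := by group
        _ = w * b * w⁻¹ := by rw [D.w'b]
        _ = b⁻¹ := D.wb
    · intro t ht
      obtain ⟨i, j, k, rfl⟩ := D.T_eq t ht
      refine ⟨i, k, j, ?_⟩
      rw [mul_assoc, mul_assoc, (hbc.pow_pow j k).eq]
    · intro h hh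
      obtain ⟨t, ht, e, f, rfl⟩ := D.H_eq h hh
      refine ⟨t, ht, e + f, f, ?_⟩
      rw [hww.mul_pow, pow_add]
      calc t * w ^ e * w' ^ f = t * w ^ e * (1 : G) ^ f * w' ^ f := by rw [one_pow, mul_one]
        _ = t * w ^ e * (w ^ 2) ^ f * w' ^ f := by rw [hw2]
        _ = t * (w ^ e * w ^ f) * (w ^ f * w' ^ f) := by
            rw [← pow_mul, two_mul, pow_add]; group
    · intro i j k h
      have h' : a ^ i * b ^ k * c ^ j = 1 := by
        rw [mul_assoc, (hbc.pow_pow k j).eq, ← mul_assoc]; exact h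
      obtain ⟨h1, h2, h3⟩ := D.indep i k j h'
      exact ⟨h1, h3, h2⟩
  · refine
      { haT := D.hbT, hbT := D.haT, hcT := D.hcT, hwH := D.hw'H,
        hw'H := D.hwH, hTH := D.hTH,
        a3 := D.b3, b3 := D.a3, c3 := D.c3,
        ab := D.ab.symm, ac := D.bc, bc := D.ac,
        w2 := D.w'2, w'2 := D.w2, ww' := D.ww'.symm,
        wa := D.w'b, wb := D.w'a, wc := D.w'c,
        w'a := D.wb, w'b := D.wa, w'c := D.wc,
        T_eq := ?_, H_eq := ?_,
        cardT := D.cardT, cardH := D.cardH, indep := ?_, hN := D.hN, hC := D.hC }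
    · intro t ht
      obtain ⟨i, j, k, rfl⟩ := D.T_eq t ht
      refine ⟨j, i, k, ?_⟩
      rw [(hab.pow_pow i j).eq]
    · intro h hh
      obtain ⟨t, ht, e, f, rfl⟩ := D.H_eq h hh
      refine ⟨t, ht, f, e, ?_⟩
      rw [mul_assoc, mul_assoc, (hww.pow_pow e f).eq]
    · intro i j k h
      have h' : a ^ j * b ^ i * c ^ k = 1 := by
        rw [(hab.pow_pow j i).eq]; exact h
      obtain ⟨h1, h2, h3⟩ := D.indep j i k h'
      exact ⟨h2, h1, h3⟩

end Cfsg.Agent.Lib.Helper85.S3701
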